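import Mathlib
import Cfsg.Agent.Lib.Helper63.BB.Defs

/-!
# S4144 (project BB), package [ML]

`b ↦ cs x b j` is multiplicative modulo `L (j+1)`.
-/

set_option autoImplicit false

namespace Cfsg.Agent.Lib.Helper80.BB

open Cfsg.Agent.Lib.Helper63.BB Cfsg.Agent.Lib.Helper63.MC

open scoped commutatorElement

universe u

theorem cs_succ' {G : Type u} [Group G] (e b : G) (j : ℕ) :
    cs e b (j + 1) = (cs e b j)⁻¹ * (e * cs e b j * e⁻¹) := rfl

theorem kappa_mem_L {G : Type u} [Group G] (x u : G) (j : ℕ) (hu : u ∈ L G j) :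
    u⁻¹ * (x * u * x⁻¹) ∈ L G (j + 1) := by
  have h : u⁻¹ * (x * u * x⁻¹) = ⁅u⁻¹, x⁆ := by rw [commutatorElement_def]; group
  rw [h]
  exact Subgroup.commutator_mem_commutator (Subgroup.inv_mem _ hu) (Subgroup.mem_top x)

theorem cs_mem_L' {G : Type u} [Group G] (x b : G) : ∀ j, cs x b j ∈ L G j
  | 0 => Subgroup.mem_top _
  | j + 1 => kappa_mem_L x _ j (cs_mem_L' x b j)

/-- [ML] -/
theorem pkgMultLin : PkgMultLin.{u} := by
  intro G _ x g h j
  induction j with
  | zero =>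
    show g * h * (g * h)⁻¹ ∈ L G 1
    rw [mul_inv_cancel]
    exact Subgroup.one_mem _
  | succ j ih =>
    have ha := cs_mem_L' x g j
    have hb := cs_mem_L' x h j
    rw [cs_succ', cs_succ', cs_succ']
    generalize cs x g j = a at *
    generalize cs x h j = b at *
    generalize cs x (g * h) j = u at *
    obtain ⟨w, hw⟩ : ∃ w, w = u * (a * b)⁻¹ := ⟨_, rfl⟩
    rw [← hw] at ih
    have hu : u = w * (a * b) := by rw [hw]; group
    have key : u⁻¹ * (x * u * x⁻¹) * (a⁻¹ * (x * a * x⁻¹) * (b⁻¹ * (x * b * x⁻¹)))⁻¹ =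
        ((a * b)⁻¹ * (w⁻¹ * (x * w * x⁻¹)) * (a * b)⁻¹⁻¹) *
          ⁅a⁻¹ * (x * a * x⁻¹), b⁻¹⁆⁻¹ := by
      rw [hu, commutatorElement_def]; group
    rw [key]
    have hN : (L G (j + 1 + 1)).Normal := inferInstance
    refine Subgroup.mul_mem _ (hN.conj_mem _ (kappa_mem_L x w (j + 1) ih) _)
      (Subgroup.inv_mem _ ?_)
    exact Subgroup.commutator_mem_commutator (kappa_mem_L x a j ha) (Subgroup.mem_top _)

end Cfsg.Agent.Lib.Helper80.BB
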