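import Mathlib
import Cfsg.Agent.Lib.Helper63.BB.Defs
import Cfsg.Agent.S4209

/-!
# S4144 (project BB), package [SC]

Scaling lemma: an endomorphism inducing the `b`-th power on `N / N'` induces the
`b ^ (k+1)`-th power on `γ_{k+1}(N) / γ_{k+2}(N)`.
-/

set_option autoImplicit false

namespace Cfsg.Agent.Lib.Helper80.BB

open Cfsg.Agent.Lib.Helper63.BB Cfsg.Agent.Lib.Helper63.MC

open scoped commutatorElement

universe u

theorem sc_comm_mul_left {Q : Type u} [Group Q] (a a' n : Q)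
    (hc : ∀ q : Q, Commute q ⁅a', n⁆) : ⁅a * a', n⁆ = ⁅a, n⁆ * ⁅a', n⁆ := by
  have h1 : ⁅a * a', n⁆ = a * ⁅a', n⁆ * a⁻¹ * ⁅a, n⁆ := by
    simp only [commutatorElement_def]; group
  rw [h1, (hc a).eq, mul_inv_cancel_right]
  exact ((hc ⁅a, n⁆).eq).symm

theorem sc_comm_mul_right {Q : Type u} [Group Q] (a n n' : Q)
    (hc : ∀ q : Q, Commute q ⁅a, n'⁆) : ⁅a, n * n'⁆ = ⁅a, n⁆ * ⁅a, n'⁆ := by
  have h1 : ⁅a, n * n'⁆ = ⁅a, n⁆ * (n * ⁅a, n'⁆ * n⁻¹) := by
    simp only [commutatorElement_def]; group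
  rw [h1, (hc n).eq, mul_inv_cancel_right]

/-- The scaling lemma for the whole group. -/
theorem scale_top {M : Type u} [Group M] (θ : M →* M) (b : ℕ)
    (h1 : ∀ g : M, θ g * (g ^ b)⁻¹ ∈ L M 1) :
    ∀ k : ℕ, ∀ w ∈ L M k, θ w * (w ^ (b ^ (k + 1)))⁻¹ ∈ L M (k + 1) := by
  intro k
  induction k with
  | zero =>
    intro w _
    rw [zero_add, pow_one]
    exact h1 w
  | succ k ih =>
    intro w hw
    have hN : (L M (k + 1 + 1)).Normal := inferInstance
    let π : M →* M ⧸ L M (k + 1 + 1) := QuotientGroup.mk' (L M (k + 1 + 1))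
    have hπ1 : ∀ m : M, m ∈ L M (k + 1 + 1) → π m = 1 := fun m hm =>
      (QuotientGroup.eq_one_iff m).mpr hm
    have hc1 : ∀ t ∈ L M (k + 1), ∀ q : M ⧸ L M (k + 1 + 1), Commute q (π t) := by
      intro t ht q
      obtain ⟨m, rfl⟩ := QuotientGroup.mk_surjective q
      show π m * π t = π t * π m
      rw [← map_mul, ← map_mul]
      apply (QuotientGroup.eq).mpr
      have h : (m * t)⁻¹ * (t * m) = ⁅t⁻¹, m⁻¹⁆ := by rw [commutatorElement_def]; group
      rw [h]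
      exact Subgroup.commutator_mem_commutator (Subgroup.inv_mem _ ht) (Subgroup.mem_top _)
    have hcomm_mem : ∀ u ∈ L M k, ∀ n : M, ⁅u, n⁆ ∈ L M (k + 1) := fun u hu n =>
      Subgroup.commutator_mem_commutator hu (Subgroup.mem_top n)
    have hcen : ∀ u ∈ L M k, ∀ n : M, ∀ q : M ⧸ L M (k + 1 + 1), Commute q ⁅π u, π n⁆ := by
      intro u hu n q
      rw [← map_commutatorElement]
      exact hc1 _ (hcomm_mem u hu n) q
    have hc2 : ∀ u ∈ L M k, ∀ t' ∈ L M 1, ⁅π u, π t'⁆ = 1 := by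
      intro u hu t' ht'
      rw [← map_commutatorElement]
      exact hπ1 _ (Cfsg.Agent.S4209.lcs_comm_top k 1
        (Subgroup.commutator_mem_commutator hu ht'))
    have hc3 : ∀ t ∈ L M (k + 1), ∀ m : M, ⁅π t, π m⁆ = 1 := by
      intro t ht m
      rw [← map_commutatorElement]
      exact hπ1 _ (Subgroup.commutator_mem_commutator ht (Subgroup.mem_top m))
    have h3 : ∀ e : ℕ, ∀ u ∈ L M k, ∀ n : M, ⁅(π u) ^ e, π n⁆ = ⁅π u, π n⁆ ^ e := by
      intro e u hu n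
      induction e with
      | zero => rw [pow_zero, pow_zero, commutatorElement_one_left]
      | succ e ihe =>
        rw [pow_succ, sc_comm_mul_left (π u ^ e) (π u) (π n) (hcen u hu n), ihe, pow_succ]
    have h5 : ∀ e : ℕ, ∀ u ∈ L M k, ∀ n : M, ⁅π u, (π n) ^ e⁆ = ⁅π u, π n⁆ ^ e := by
      intro e u hu n
      induction e with
      | zero => rw [pow_zero, pow_zero, commutatorElement_one_right]
      | succ e ihe =>
        rw [pow_succ, sc_comm_mul_right (π u) (π n ^ e) (π n) (hcen u hu n), ihe, pow_succ]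
    have hgen : ∀ u ∈ L M k, ∀ n : M, π (θ ⁅u, n⁆) = (π ⁅u, n⁆) ^ (b ^ (k + 1 + 1)) := by
      intro u hu n
      have ht := ih u hu
      have ht' := h1 n
      have e1 : θ u = (θ u * (u ^ (b ^ (k + 1)))⁻¹) * u ^ (b ^ (k + 1)) := by group
      have e2 : θ n = (θ n * (n ^ b)⁻¹) * n ^ b := by group
      have huE : u ^ (b ^ (k + 1)) ∈ L M k := Subgroup.pow_mem _ hu _
      calc π (θ ⁅u, n⁆) = ⁅π (θ u), π (θ n)⁆ := by
            rw [map_commutatorElement, map_commutatorElement]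
        _ = ⁅π (θ u * (u ^ (b ^ (k + 1)))⁻¹) * π (u ^ (b ^ (k + 1))), π (θ n)⁆ := by
            rw [← map_mul, ← e1]
        _ = ⁅π (θ u * (u ^ (b ^ (k + 1)))⁻¹), π (θ n)⁆ * ⁅π (u ^ (b ^ (k + 1))), π (θ n)⁆ :=
            sc_comm_mul_left _ _ _ (hcen _ huE (θ n))
        _ = ⁅π (u ^ (b ^ (k + 1))), π (θ n)⁆ := by
            rw [hc3 _ ht (θ n), one_mul]
        _ = ⁅π (u ^ (b ^ (k + 1))), π (θ n * (n ^ b)⁻¹) * π (n ^ b)⁆ := by
            rw [← map_mul, ← e2]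
        _ = ⁅π (u ^ (b ^ (k + 1))), π (θ n * (n ^ b)⁻¹)⁆ *
              ⁅π (u ^ (b ^ (k + 1))), π (n ^ b)⁆ :=
            sc_comm_mul_right _ _ _ (hcen _ huE (n ^ b))
        _ = ⁅π (u ^ (b ^ (k + 1))), π (n ^ b)⁆ := by
            rw [hc2 _ huE _ ht', one_mul]
        _ = ⁅π u, π (n ^ b)⁆ ^ (b ^ (k + 1)) := by
            rw [map_pow, h3 _ u hu (n ^ b)]
        _ = (⁅π u, π n⁆ ^ b) ^ (b ^ (k + 1)) := by
            rw [map_pow, h5 _ u hu n]
        _ = (π ⁅u, n⁆) ^ (b ^ (k + 1 + 1)) := by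
            rw [← pow_mul, map_commutatorElement, pow_succ b (k + 1), mul_comm]
    have hP : ∀ w ∈ L M (k + 1), π (θ w) = (π w) ^ (b ^ (k + 1 + 1)) := by
      intro w hw
      have hw' : w ∈ Subgroup.closure
          {g | ∃ g₁ ∈ L M k, ∃ g₂ ∈ (⊤ : Subgroup M), ⁅g₁, g₂⁆ = g} := hw
      refine Subgroup.closure_induction
        (p := fun w _ => π (θ w) = (π w) ^ (b ^ (k + 1 + 1))) ?_ ?_ ?_ ?_ hw'
      · intro x hx
        obtain ⟨u, hu, n, -, rfl⟩ := hx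
        exact hgen u hu n
      · show π (θ 1) = (π 1) ^ (b ^ (k + 1 + 1))
        rw [map_one, map_one, one_pow]
      · intro x y hx hy ihx ihy
        show π (θ (x * y)) = (π (x * y)) ^ (b ^ (k + 1 + 1))
        have hy' : y ∈ L M (k + 1) := hy
        rw [map_mul, map_mul, map_mul, ihx, ihy]
        exact ((hc1 y hy' (π x)).mul_pow _).symm
      · intro x hx ihx
        show π (θ x⁻¹) = (π x⁻¹) ^ (b ^ (k + 1 + 1))
        rw [map_inv, map_inv, map_inv, ihx, inv_pow]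
    have hfin := hP w hw
    have h6 : π (θ w) = π (w ^ (b ^ (k + 1 + 1))) := by rw [hfin, map_pow]
    have h7 := (QuotientGroup.eq_iff_div_mem).mp h6
    rw [div_eq_mul_inv] at h7
    exact h7

/-- [SC] -/
theorem pkgScale : PkgScale.{u} := by
  intro G _ N θ b hθ h1 k w hw
  let θ' : N →* N := (θ.comp N.subtype).codRestrict N (fun g => hθ g.1 g.2)
  have hθ' : ∀ g : N, ((θ' g : N) : G) = θ g.1 := fun g => rfl
  have h1' : ∀ g : N, θ' g * (g ^ b)⁻¹ ∈ L ↥N 1 := by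
    intro g
    have h := h1 g.1 g.2
    rw [← Subgroup.top_subtype_lowerCentralSeries N 1] at h
    obtain ⟨y, hy, hy'⟩ := h
    have h2 : y = θ' g * (g ^ b)⁻¹ := by
      apply Subtype.ext
      rw [Subgroup.coe_mul, Subgroup.coe_inv, Subgroup.coe_pow, hθ']
      exact hy'
    rw [← h2]
    exact hy
  rw [← Subgroup.top_subtype_lowerCentralSeries N k] at hw
  obtain ⟨w', hw', rfl⟩ := hw
  have h := scale_top θ' b h1' k w' hw'
  rw [← Subgroup.top_subtype_lowerCentralSeries N (k + 1)]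
  refine ⟨θ' w' * (w' ^ (b ^ (k + 1)))⁻¹, h, ?_⟩
  show ((θ' w' * (w' ^ (b ^ (k + 1)))⁻¹ : N) : G) = θ (N.subtype w') * (N.subtype w' ^ (b ^ (k + 1)))⁻¹
  rw [Subgroup.coe_mul, Subgroup.coe_inv, Subgroup.coe_pow, hθ']
  rfl

end Cfsg.Agent.Lib.Helper80.BB
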